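import Cfsg.Agent.H847.Bs.Defs2
import Cfsg.Agent.H440.Bs.Iso

/-!
# UK3 (S5716, helper791): the field case
-/

set_option autoImplicit false
set_option linter.unusedSectionVars false
set_option linter.style.haveILetI false

namespace Cfsg.Agent.H791.UK

open Module Cfsg.Agent.H847.Bs

section comm

variable {F U : Type} [Field F] [Finite F] [AddCommGroup U] [Module F U] [Module.Finite F U]
  {T : Subalgebra F (Module.End F U)}

/-- conjugation by `g` on `T` -/
def cj (T : Subalgebra F (Module.End F U)) (g : U ≃ₗ[F] U)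
    (hn : ∀ a ∈ T, (g : U →ₗ[F] U) * a * ((g⁻¹ : U ≃ₗ[F] U) : U →ₗ[F] U) ∈ T) : T →ₐ[F] T where
  toFun a := ⟨(g : U →ₗ[F] U) * a.1 * ((g⁻¹ : U ≃ₗ[F] U) : U →ₗ[F] U), hn _ a.2⟩
  map_one' := Subtype.ext (LinearMap.ext fun v => by
    show g (g⁻¹ v) = v
    exact g.apply_symm_apply v)
  map_mul' a b := Subtype.ext (LinearMap.ext fun v => by
    show g (a.1 (b.1 (g⁻¹ v))) = g (a.1 (g⁻¹ (g (b.1 (g⁻¹ v)))))
    rw [show g⁻¹ (g (b.1 (g⁻¹ v))) = b.1 (g⁻¹ v) from g.symm_apply_apply _])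
  map_zero' := Subtype.ext (LinearMap.ext fun v => by
    show g 0 = 0
    exact map_zero g)
  map_add' a b := Subtype.ext (LinearMap.ext fun v => by
    show g (a.1 (g⁻¹ v) + b.1 (g⁻¹ v)) = g (a.1 (g⁻¹ v)) + g (b.1 (g⁻¹ v))
    exact map_add g _ _)
  commutes' c := Subtype.ext (LinearMap.ext fun v => by
    show g (c • (g⁻¹ v)) = c • v
    rw [map_smul, show g (g⁻¹ v) = v from g.apply_symm_apply v])

theorem comm_of_odd (hT : IsField T) (h2 : finrank F T = 2) {g : U ≃ₗ[F] U} (hodd : Odd (orderOf g))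
    (hn : ∀ k ∈ Subgroup.zpowers g, ∀ a ∈ T, (k : U →ₗ[F] U) * a * ((k⁻¹ : U ≃ₗ[F] U) : U →ₗ[F] U) ∈ T) :
    ∀ a ∈ T, ∀ v, g (a v) = a (g v) := by
  classical
  letI : Field T := hT.toField
  have hpow : ∀ k : ℕ, g ^ k ∈ Subgroup.zpowers g := fun k => Subgroup.npow_mem_zpowers g k
  let c : ℕ → (T →ₐ[F] T) := fun k => cj T (g ^ k) (hn _ (hpow k))
  have hc0 : c 0 = AlgHom.id F T := by
    refine AlgHom.ext fun a => Subtype.ext (LinearMap.ext fun v => ?_)
    show (g ^ 0) (a.1 ((g ^ 0)⁻¹ v)) = a.1 v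
    rw [pow_zero, inv_one]; rfl
  have hcadd : ∀ i j, c (i + j) = (c i).comp (c j) := by
    intro i j
    refine AlgHom.ext fun a => Subtype.ext (LinearMap.ext fun v => ?_)
    show (g ^ (i + j)) (a.1 ((g ^ (i + j))⁻¹ v)) = (g ^ i) ((g ^ j) (a.1 ((g ^ j)⁻¹ ((g ^ i)⁻¹ v))))
    rw [pow_add, mul_inv_rev]; rfl
  have hcn : c (orderOf g) = AlgHom.id F T := by
    refine AlgHom.ext fun a => Subtype.ext (LinearMap.ext fun v => ?_)
    show (g ^ orderOf g) (a.1 ((g ^ orderOf g)⁻¹ v)) = a.1 v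
    rw [pow_orderOf_eq_one, inv_one]; rfl
  have h1 : c 1 = AlgHom.id F T := by
    have hcard : Fintype.card (T →ₐ[F] T) ≤ 2 := by
      rw [← h2]; exact AlgHom.card_le
    -- among `c 0`, `c 1`, `c 2` two are equal
    have hfin : c 0 = c 1 ∨ c 0 = c 2 ∨ c 1 = c 2 := by
      by_contra hcon
      push Not at hcon
      have h3 : ({c 0, c 1, c 2} : Finset (T →ₐ[F] T)).card = 3 := by
        rw [Finset.card_eq_three]
        exact ⟨_, _, _, hcon.1, hcon.2.1, hcon.2.2, rfl⟩
      have h4 := Finset.card_le_univ ({c 0, c 1, c 2} : Finset (T →ₐ[F] T))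
      omega
    obtain ⟨m, hm⟩ := hodd
    rcases hfin with h3 | h3 | h3
    · rw [← h3, hc0]
    · -- `c 2 = id`
      have h4 : ∀ k, c (2 * k) = AlgHom.id F T := by
        intro k
        induction k with
        | zero => exact hc0
        | succ k ih => rw [Nat.mul_succ, hcadd, ih, ← h3, hc0]; rfl
      have h5 : c (orderOf g) = c 1 := by
        rw [hm, hcadd, h4]; rfl
      rw [← h5, hcn]
    · -- `c 2 = c 1`
      have h4 : ∀ k, c (k + 1) = c 1 := by
        intro k
        induction k with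
        | zero => rfl
        | succ k ih => rw [hcadd (k + 1) 1, ih, ← hcadd, ← h3]
      rw [← hcn, hm]
      exact (h4 _).symm
  intro a ha v
  have h3 := congrArg (fun f : T →ₐ[F] T => ((f ⟨a, ha⟩ : T) : U →ₗ[F] U) (g v)) h1
  have h4 : (g ^ 1) (a ((g ^ 1)⁻¹ (g v))) = a (g v) := h3
  rw [pow_one, show g⁻¹ (g v) = v from g.symm_apply_apply v] at h4
  exact h4

/-- dimension of a `T`-stable subspace -/
theorem even_finrank (hT : IsField T) (h2 : finrank F T = 2) {X : Submodule F U} (hX : ∀ a ∈ T, ∀ v ∈ X, a v ∈ X) :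
    Even (finrank F X) := by
  letI : Field T := hT.toField
  let φ : T →+* Module.End F X :=
    { toFun := fun a => a.1.restrict (hX a.1 a.2)
      map_one' := LinearMap.ext fun v => rfl
      map_mul' := fun a b => LinearMap.ext fun v => rfl
      map_zero' := LinearMap.ext fun v => rfl
      map_add' := fun a b => LinearMap.ext fun v => rfl }
  letI : Module T X := Module.compHom X φ
  haveI : IsScalarTower F T X := ⟨fun c a v => by
    apply Subtype.ext
    rfl⟩
  have h3 := Module.finrank_mul_finrank F T X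
  rw [← h3, h2]
  exact even_two_mul _

end comm

end Cfsg.Agent.H791.UK
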