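import Cfsg.Agent.H791.UK.Prop
import Cfsg.Agent.H141.Ux.Stmts
import Cfsg.Agent.H27.UK.Quad

/-!
# UK3 (S5716, helper791): the outcomes of UN for a group of isometries of the form `Φ₀` of `U`
-/

set_option autoImplicit false
set_option linter.unusedSectionVars false

namespace Cfsg.Agent.H791.UK

open Module Cfsg.Agent.H847.Bs Cfsg.Agent.LieClassical.OrthCore QuadraticMap
open Cfsg.Agent.H440.Bs (perp mem_perp mem_perp' finrank_perp B_zero_right B_zero_left lin)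
open Cfsg.Agent.H847.Ux (Kl)
open Cfsg.Agent.H27.UK

section

variable {F U : Type} [Field F] [Finite F] [AddCommGroup U] [Module F U] [Module.Finite F U]
  {Ψ Φ₀ : Frm F U}

theorem of_elt {Φ₀ : Frm F U} {v : U} {t : U ≃ₗ[F] U} (ht : t ∈ Φ₀.Iso) {f : U → F}
    (htv : ∀ y, t y = y + f y • v) {y y' : U} (hy : f y = 0) (hy' : f y' ≠ 0) : Φ₀.B y v = 0 := by
  have h1 := ht.1 y y'
  rw [htv y, hy, zero_smul, add_zero, htv y', Φ₀.add_right] at h1
  have h2 : Φ₀.B y (f y' • v) = 0 := by linear_combination h1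
  have h4 := Φ₀.smul_right (f y')⁻¹ y (f y' • v)
  rwa [smul_smul, inv_mul_cancel₀ hy', one_smul, h2, mul_zero] at h4

/-- the special linear group fixes no form -/
theorem not_sl (h0 : Φ₀.Nd) (hd : 3 ≤ finrank F U) (h : slV F U ≤ Φ₀.Iso) : False := by
  have hnt : Nontrivial U := Module.nontrivial_of_finrank_pos (R := F) (by omega)
  obtain ⟨v, hv⟩ := _root_.exists_ne (0 : U)
  apply hv
  refine h0 v fun y => Φ₀.refl _ _ ?_
  have h1 : finrank F (Submodule.span F (Set.range ![v, y])) ≤ 2 := by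
    have := finrank_range_le_card (R := F) ![v, y]
    rwa [Fintype.card_fin] at this
  have h2 : Submodule.span F (Set.range ![v, y]) < ⊤ := by
    rw [lt_top_iff_ne_top]
    intro h3
    rw [h3, finrank_top] at h1
    omega
  obtain ⟨f, hf, hle⟩ := Submodule.exists_le_ker_of_lt_top _ h2
  have hfv : f v = 0 := hle (Submodule.subset_span ⟨0, rfl⟩)
  have hfy : f y = 0 := hle (Submodule.subset_span ⟨1, rfl⟩)
  obtain ⟨y', hy'⟩ : ∃ y', f y' ≠ 0 := by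
    by_contra hcon
    push Not at hcon
    exact hf (LinearMap.ext hcon)
  have ht : LinearEquiv.transvection hfv ∈ slV F U := by
    show LinearMap.det ((LinearEquiv.transvection hfv : U ≃ₗ[F] U) : U →ₗ[F] U) = 1
    rw [← LinearEquiv.coe_det, LinearEquiv.transvection.det_eq_one, Units.val_one]
  exact of_elt (h ht) (f := f) (fun u => LinearEquiv.transvection.apply hfv u) hfy hy'

/-- the symplectic group -/
theorem prop_sp (hΨ : IsSp Ψ) (hn : 7 ≤ finrank F U) (h0 : Φ₀.Nd) (h : Ψ.Iso ≤ Φ₀.Iso) :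
    ∃ c : F, c ≠ 0 ∧ (∀ x y, Φ₀.B x y = c * Ψ.B x y) ∧ ∀ a, Φ₀.s a = a := by
  have hk : Kl Ψ Ψ.Iso 1 := Or.inl ⟨hΨ, rfl, rfl⟩
  obtain ⟨c, hc, h1, h2⟩ := prop_of hk hn h0 (by
    intro v _ y hy
    by_cases hv : v = 0
    · rw [hv, B_zero_right]
    obtain ⟨y', hy'⟩ := Cfsg.Agent.H791.UK.exists_ne hΨ.nd hv
    have hfv : lin Ψ v v = 0 := hΨ.alt v
    have hsk : ∀ x y, Ψ.B x y = - Ψ.B y x := by
      intro x y
      have h := hΨ.alt (x + y)
      rw [Ψ.add_left, Ψ.add_right, Ψ.add_right, hΨ.alt x, hΨ.alt y] at h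
      linear_combination h
    have hta : ∀ x, LinearEquiv.transvection hfv x = x + Ψ.B x v • v := fun u => LinearEquiv.transvection.apply hfv u
    have ht : LinearEquiv.transvection hfv ∈ Ψ.Iso := by
      refine ⟨fun x y => ?_, fun x => by rw [hΨ.q, hΨ.q]⟩
      rw [hta, hta, Ψ.add_left, Ψ.add_right, Ψ.add_right, Ψ.smul_left, Ψ.smul_left, Ψ.smul_right, Ψ.smul_right,
        hΨ.s, hΨ.alt v, hsk v y]
      ring
    exact of_elt (h ht) (f := fun x => Ψ.B x v) hta hy hy')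
  exact ⟨c, hc, h1, fun a => by rw [h2, hΨ.s]⟩

/-- the special unitary group -/
theorem prop_su {r : ℕ} (hΨ : IsHerm r Ψ) (hn : 7 ≤ finrank F U) (h0 : Φ₀.Nd) (h : Ψ.Iso ⊓ slV F U ≤ Φ₀.Iso) :
    ∃ c : F, c ≠ 0 ∧ (∀ x y, Φ₀.B x y = c * Ψ.B x y) ∧ ∀ a, Φ₀.s a = a ^ r := by
  have hk : Kl Ψ (Ψ.Iso ⊓ slV F U) r := Or.inr (Or.inl ⟨r, hΨ, rfl, rfl⟩)
  have := Fintype.ofFinite F
  obtain ⟨a, ha0, ha⟩ := Cfsg.Agent.LieClassical.HermBasic.exists_trace_zero_ne (F := F) (q := r)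
    (by rw [← Nat.card_eq_fintype_card]; exact hΨ.card)
  obtain ⟨c, hc, h1, h2⟩ := prop_of hk hn h0 (by
    intro v hv y hy
    by_cases hv0 : v = 0
    · rw [hv0, B_zero_right]
    obtain ⟨y', hy'⟩ := Cfsg.Agent.H791.UK.exists_ne hΨ.nd hv0
    have hfv : (a • lin Ψ v) v = 0 := by
      show a * Ψ.B v v = 0
      rw [hv.1, mul_zero]
    have hta : ∀ x, LinearEquiv.transvection hfv x = x + (a * Ψ.B x v) • v :=
      fun u => LinearEquiv.transvection.apply hfv u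
    have ht : LinearEquiv.transvection hfv ∈ Ψ.Iso ⊓ slV F U := by
      refine ⟨⟨fun x y => ?_, fun x => by rw [hΨ.q, hΨ.q]⟩, ?_⟩
      · rw [hta, hta, Ψ.add_left, Ψ.add_right, Ψ.add_right, Ψ.smul_left, Ψ.smul_left, Ψ.smul_right, Ψ.smul_right,
          hΨ.s, hv.1, hΨ.symm y v, mul_pow]
        linear_combination (Ψ.B x v * Ψ.B y v ^ r) * ha
      · show LinearMap.det ((LinearEquiv.transvection hfv : U ≃ₗ[F] U) : U →ₗ[F] U) = 1
        rw [← LinearEquiv.coe_det, LinearEquiv.transvection.det_eq_one, Units.val_one]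
    exact of_elt (h ht) (f := fun x => a * Ψ.B x v) hta (by rw [hy, mul_zero]) (mul_ne_zero ha0 hy'))
  exact ⟨c, hc, h1, fun a => by rw [h2, hΨ.s]⟩

/-- orthogonal groups -/
theorem prop_quad {Q' : QuadraticForm F U} (hQ : (frmQ Q').Nd) (hn : 7 ≤ finrank F U) (h0 : Φ₀.Nd)
    (h : E Q' ≤ Φ₀.Iso) : ∃ c : F, c ≠ 0 ∧ (∀ x y, Φ₀.B x y = c * polar Q' x y) ∧ ∀ a, Φ₀.s a = a := by
  have hk : Kl (frmQ Q') (E Q') (Nat.card F) := Or.inr (Or.inr ⟨Q', hQ, rfl, rfl, rfl⟩)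
  obtain ⟨c, hc, h1, h2⟩ := prop_of hk hn h0 (fun v hv y hy => quad_perp hQ (by omega) h v hv.2 y hy)
  exact ⟨c, hc, h1, h2⟩

theorem iso_le_of_prop {c : F} (hc : c ≠ 0) (hB : ∀ x y, Φ₀.B x y = c * Ψ.B x y) (hq : ∀ x, Ψ.q x = 0) :
    Φ₀.Iso ≤ Ψ.Iso := by
  intro g hg
  refine ⟨fun x y => ?_, fun x => by rw [hq, hq]⟩
  have h1 := hg.1 x y
  rw [hB, hB] at h1
  exact mul_left_cancel₀ hc h1

theorem not_herm {r : ℕ} (hF : Nat.card F = r ^ 2) (h : ∀ a : F, a ^ r = a) : False := by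
  classical
  have hr1 : 1 < Nat.card F := Finite.one_lt_card
  have hr : 2 ≤ r := by
    by_contra hlt
    interval_cases r <;> simp at hF <;> omega
  have := Fintype.ofFinite F
  have h1 : (Finset.univ : Finset F) ⊆ (Polynomial.X ^ r - Polynomial.X : Polynomial F).roots.toFinset := by
    intro a _
    rw [Multiset.mem_toFinset, Polynomial.mem_roots (FiniteField.X_pow_card_sub_X_ne_zero F (by omega))]
    simp [Polynomial.IsRoot, h a]
  have h2 := Finset.card_le_card h1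
  have h3 := (Multiset.toFinset_card_le _).trans ((Polynomial.card_roots' (Polynomial.X ^ r - Polynomial.X : Polynomial F)))
  rw [FiniteField.X_pow_card_sub_X_natDegree_eq F (by omega)] at h3
  rw [Finset.card_univ, ← Nat.card_eq_fintype_card, hF] at h2
  nlinarith

/-- the last four alternatives of `UN` -/
def Alt (K : Subgroup (U ≃ₗ[F] U)) : Prop :=
  slV F U ≤ K ∨
  (∃ Φ : Frm F U, IsSp Φ ∧ Φ.Iso ≤ K ∧ ∀ h ∈ K, Cfsg.Agent.H141.Ux.Sim Φ h) ∨
  (∃ (r : ℕ) (Φ : Frm F U), IsHerm r Φ ∧ Φ.Iso ⊓ slV F U ≤ K ∧ ∀ h ∈ K, Cfsg.Agent.H141.Ux.Sim Φ h) ∨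
  (∃ Q : QuadraticForm F U, (∀ v, Q v = 0 → (∀ w, QuadraticMap.polar Q v w = 0) → v = 0) ∧ E Q ≤ K ∧
    ∀ h ∈ K, ∃ c : F, ∀ v, Q (h v) = c * Q v)

/-- symplectic spaces -/
theorem out_sp {K : Subgroup (U ≃ₗ[F] U)} (hA : Alt K) (hK : K ≤ Φ₀.Iso) (hirr : IrrG K) (hn : 7 ≤ finrank F U)
    (h0 : IsSp Φ₀) :
    ((2 : F) ≠ 0 → Φ₀.Iso ≤ K) ∧
      ((2 : F) = 0 → ∃ Q : QuadraticForm F U, (∀ x y, polar Q x y = Φ₀.B x y) ∧ E Q ≤ K) := by
  rcases hA with h | ⟨Ψ, hΨ, h, -⟩ | ⟨r, Ψ, hΨ, h, -⟩ | ⟨Q', hns, h, hsim⟩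
  · exact absurd (not_sl h0.nd (by omega) (h.trans hK)) id
  · obtain ⟨c, hc, hB, -⟩ := prop_sp hΨ hn h0.nd (h.trans hK)
    have h1 : Φ₀.Iso ≤ K := (iso_le_of_prop hc hB hΨ.q).trans h
    refine ⟨fun _ => h1, fun h2 => ?_⟩
    obtain ⟨Q, hQ⟩ := exists_quad h0 h2
    exact ⟨Q, hQ, (E_le_iso h0 hQ).trans h1⟩
  · obtain ⟨c, hc, hB, hs⟩ := prop_su hΨ hn h0.nd (h.trans hK)
    exact absurd (not_herm hΨ.card fun a => by rw [← hs, h0.s]) id
  · have hnd := quad_nd hirr (by omega) hns hsim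
    obtain ⟨c, hc, hB, -⟩ := prop_quad hnd hn h0.nd (h.trans hK)
    have hp : ∀ x, polar Q' x x = 0 := by
      intro x
      have h1 := hB x x
      rw [h0.alt] at h1
      rcases mul_eq_zero.1 h1.symm with h2 | h2
      · exact absurd h2 hc
      · exact h2
    refine ⟨fun h2 => ?_, fun _ => ⟨c • Q', fun x y => ?_, ?_⟩⟩
    · exfalso
      have hQ0 : ∀ x, Q' x = 0 := by
        intro x
        have h3 := hp x
        rw [Cfsg.Agent.H847.Ux.polar_self_eq] at h3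
        exact (mul_eq_zero.1 h3).resolve_left h2
      have hnt : Nontrivial U := Module.nontrivial_of_finrank_pos (R := F) (by omega)
      obtain ⟨v, hv⟩ := _root_.exists_ne (0 : U)
      exact hv (hns v (hQ0 v) fun w => by rw [polar, hQ0, hQ0, hQ0]; ring)
    · rw [hB, FunLike.coe_smul, polar_smul, smul_eq_mul]
    · exact (E_le hc (Q₀ := c • Q') (Q' := Q') fun v => by
        rw [QuadraticMap.smul_apply, smul_eq_mul]).trans h

/-- hermitian spaces -/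
theorem out_su {K : Subgroup (U ≃ₗ[F] U)} (hA : Alt K) (hK : K ≤ Φ₀.Iso) (hirr : IrrG K) (hn : 7 ≤ finrank F U)
    {r : ℕ} (h0 : IsHerm r Φ₀) : Φ₀.Iso ⊓ slV F U ≤ K := by
  rcases hA with h | ⟨Ψ, hΨ, h, -⟩ | ⟨r', Ψ, hΨ, h, -⟩ | ⟨Q', hns, h, hsim⟩
  · exact absurd (not_sl h0.nd (by omega) (h.trans hK)) id
  · obtain ⟨c, hc, hB, hs⟩ := prop_sp hΨ hn h0.nd (h.trans hK)
    exact absurd (not_herm h0.card fun a => by rw [← h0.s, hs]) id
  · obtain ⟨c, hc, hB, -⟩ := prop_su hΨ hn h0.nd (h.trans hK)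
    exact (inf_le_inf_right _ (iso_le_of_prop hc hB hΨ.q)).trans h
  · have hnd := quad_nd hirr (by omega) hns hsim
    obtain ⟨c, hc, hB, hs⟩ := prop_quad hnd hn h0.nd (h.trans hK)
    exact absurd (not_herm h0.card fun a => by rw [← h0.s, hs]) id

/-- quadratic spaces -/
theorem out_quad {K : Subgroup (U ≃ₗ[F] U)} {Q₀ : QuadraticForm F U} (hA : Alt K) (hK : K ≤ (frmQ Q₀).Iso)
    (hirr : IrrG K) (hn : 7 ≤ finrank F U) (h0 : (frmQ Q₀).Nd) : E Q₀ ≤ K := by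
  rcases hA with h | ⟨Ψ, hΨ, h, -⟩ | ⟨r', Ψ, hΨ, h, -⟩ | ⟨Q', hns, h, hsim⟩
  · exact absurd (not_sl h0 (by omega) (h.trans hK)) id
  · obtain ⟨c, hc, hB, hs⟩ := prop_sp hΨ hn h0 (h.trans hK)
    exact absurd (sp_not_quad hΨ h0 (by omega) hB (h.trans hK)) id
  · obtain ⟨c, hc, hB, hs⟩ := prop_su hΨ hn h0 (h.trans hK)
    exact absurd (not_herm hΨ.card fun a => by rw [← hs]; rfl) id
  · have hnd := quad_nd hirr (by omega) hns hsim
    obtain ⟨c, hc, hB, hs⟩ := prop_quad hnd hn h0 (h.trans hK)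
    have h1 : E Q' ≤ O Q₀ := (h.trans hK).trans fun g hg => hg.2
    exact (E_le hc (quad_eq hnd (by omega) hB h1)).trans h

end

end Cfsg.Agent.H791.UK
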