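import Cfsg.Agent.H791.UK.Setup
import Cfsg.Agent.H791.UK.Out
import Cfsg.Agent.H42.Bs.Herm

/-!
# UK3 (S5716, helper791)
-/

set_option autoImplicit false
set_option linter.unusedSectionVars false
set_option linter.style.haveILetI false

namespace Cfsg.Agent.H791.UK

open Module Cfsg.Agent.H847.Bs Cfsg.Agent.LieClassical.OrthCore Cfsg.Agent.H141.Ux
open Cfsg.Agent.H440.Bs (perp mem_perp mem_perp' finrank_perp B_zero_right B_zero_left dec_perp restr restr_apply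
  glue_add glueHom glueHom_injective exists_add' finrank_map_subtype)

variable {F V : Type} [Field F] [Finite F] [AddCommGroup V] [Module F V] [Module.Finite F V] {Φ : Frm F V}

/-! ### the field case -/

theorem compl_A {A A' : Submodule F V} (hN : Φ.Nd) (hd : Disjoint A A') (hnd : Φ.NdOn (A ⊔ A')) :
    IsCompl A' (A ⊔ perp Φ (A ⊔ A')) := by
  have hc := (dec_perp Φ hN hnd).compl
  constructor
  · rw [Submodule.disjoint_def]
    intro v hv hv'
    obtain ⟨a, ha, p, hp, rfl⟩ := Submodule.mem_sup.1 hv'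
    have h1 : p ∈ A ⊔ A' := by
      have h2 : p = (a + p) - a := by abel
      rw [h2]
      exact Submodule.sub_mem _ (Submodule.mem_sup_right hv) (Submodule.mem_sup_left ha)
    have h2 : p = 0 := (Submodule.disjoint_def.1 hc.disjoint) p h1 hp
    rw [h2, add_zero] at hv ⊢
    exact (Submodule.disjoint_def.1 hd) a ha hv
  · rw [codisjoint_iff, ← sup_assoc, sup_comm A' A]
    exact hc.sup_eq_top

/-- a `T`-stable subspace -/
theorem stable {W : Submodule F V} {T : Subalgebra F (Module.End F W)} {d : ℕ} {x y z' : V ≃ₗ[F] V}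
    {A A' : Submodule F V} (hN : Φ.Nd) (hx : x ∈ Φ.Iso) (hy : y ∈ Φ.Iso) (h : StA Φ d y A A' z')
    (hW : (A ⊔ A').map (x : V →ₗ[F] V) ≤ W) (hinv : Inv (x * z' * x⁻¹) W)
    (hT : ∀ a ∈ T, ∀ v, restr (x * z' * x⁻¹) hinv (a v) = a (restr (x * z' * x⁻¹) hinv v)) :
    ∀ a ∈ T, ∀ v ∈ (A.map (x : V →ₗ[F] V)).comap W.subtype, a v ∈ (A.map (x : V →ₗ[F] V)).comap W.subtype := by
  have hbl := stA_bl hy h
  have hzA := inv_of_zpowers h.mem h.inv
  have hzA' := inv_of_zpowers h.mem h.inv'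
  have hAW : ∀ u ∈ A, x u ∈ W := fun u hu => hW ⟨u, Submodule.mem_sup_left hu, rfl⟩
  have hxx : ∀ w, x⁻¹ (x w) = w := fun w => x.symm_apply_apply w
  have hxx' : ∀ w, x (x⁻¹ w) = w := fun w => x.apply_symm_apply w
  set z₁ := x * z' * x⁻¹ with hz₁
  have hz₁a : ∀ w, z₁ w = x (z' (x⁻¹ w)) := fun w => rfl
  have hbl₁ : Bl Φ ((A ⊔ A').map (x : V →ₗ[F] V)) z₁ := hbl.conj hx
  have hc := compl_A hN h.disj h.nd
  intro a ha
  -- the projection to `A'`
  let π : V →ₗ[F] A' := Cfsg.Agent.H440.Bs.pD hc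
  have hπz : ∀ v, ((π (z' v) : A') : V) = z' (π v) := by
    intro v
    obtain ⟨b, c, rfl⟩ := exists_add' hc v
    have hzc : z' (c : V) ∈ A ⊔ perp Φ (A ⊔ A') := by
      obtain ⟨a', ha', p, hp, hap⟩ := Submodule.mem_sup.1 c.2
      rw [← hap, map_add, hbl.fix p hp]
      exact Submodule.add_mem_sup (hzA a' ha') hp
    have h1 : π ((b : V) + c) = b := Cfsg.Agent.H440.Bs.pD_add hc b c
    have h2 : π (z' (b : V) + z' (c : V)) = ⟨z' b, hzA' _ b.2⟩ :=
      Cfsg.Agent.H440.Bs.pD_add hc ⟨z' b, hzA' _ b.2⟩ ⟨z' c, hzc⟩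
    rw [h1, map_add z', h2]
  let j : A →ₗ[F] W :=
    { toFun := fun u => ⟨x u, hAW _ u.2⟩
      map_add' := fun u v => Subtype.ext (map_add x _ _)
      map_smul' := fun c u => Subtype.ext (map_smul x _ _) }
  have hj : ∀ (u : A) (hu : z' u ∈ A), j ⟨z' u, hu⟩ = restr z₁ hinv (j u) := by
    intro u hu
    apply Subtype.ext
    rw [restr_apply, hz₁a]
    show x (z' u) = x (z' (x⁻¹ (x u)))
    rw [hxx]
  let φ : A →ₗ[F] A' := π ∘ₗ (((x⁻¹ : V ≃ₗ[F] V) : V →ₗ[F] V)) ∘ₗ W.subtype ∘ₗ a ∘ₗ j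
  have hφ : φ = 0 := by
    refine h.hom φ fun u hu => ?_
    show ((π (x⁻¹ ((a (j ⟨z' u, hu⟩) : W) : V)) : A') : V) = z' ((π (x⁻¹ ((a (j u) : W) : V)) : A') : V)
    rw [hj u hu, ← hT a ha, restr_apply, hz₁a, hxx, hπz]
  have h1 : ∀ u : A, x⁻¹ ((a (j u) : W) : V) ∈ A ⊔ perp Φ (A ⊔ A') := by
    intro u
    have h2 : π (x⁻¹ ((a (j u) : W) : V)) = 0 := LinearMap.congr_fun hφ u
    exact (Cfsg.Agent.H440.Bs.pD_eq_zero hc).1 h2
  -- `z' - 1` is bijective on `A`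
  have h2 : ∀ u : A, ∃ u' : A, (u : V) = z' u' - u' := by
    let f : A →ₗ[F] A := ((z' : V →ₗ[F] V) - LinearMap.id).restrict (fun v hv => A.sub_mem (hzA v hv) hv)
    have hf : ∀ u : A, ((f u : A) : V) = z' u - u := fun u => rfl
    have hinj : Function.Injective f := by
      rw [injective_iff_map_eq_zero]
      intro u hu
      have h3 : z' (u : V) - u = 0 := by rw [← hf, hu]; rfl
      exact Subtype.ext (h.fpf _ (Submodule.mem_sup_left u.2) (sub_eq_zero.1 h3))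
    intro u
    obtain ⟨u', hu'⟩ := (LinearMap.injective_iff_surjective.1 hinj) u
    exact ⟨u', by rw [← hf, hu']⟩
  have h3 : ∀ u : A, x⁻¹ ((a (j u) : W) : V) ∈ A ⊔ A' := by
    intro u
    obtain ⟨u', hu'⟩ := h2 u
    have h4 : j u = restr z₁ hinv (j u') - j u' := by
      rw [← hj u' (hzA _ u'.2), ← map_sub]
      congr 1
      exact Subtype.ext hu'
    have h5 : a (j u) = restr z₁ hinv (a (j u')) - a (j u') := by
      rw [h4, map_sub, hT a ha]
    have h6 : ((a (j u) : W) : V) ∈ (A ⊔ A').map (x : V →ₗ[F] V) := by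
      rw [h5]
      show ((restr z₁ hinv (a (j u')) : W) : V) - ((a (j u') : W) : V) ∈ _
      rw [restr_apply]
      exact hbl₁.sub_mem hN _
    obtain ⟨w, hw, hw'⟩ := h6
    rw [← hw']
    show x⁻¹ (x w) ∈ _
    rw [hxx]; exact hw
  have h4 : ∀ u : A, x⁻¹ ((a (j u) : W) : V) ∈ A := by
    intro u
    obtain ⟨b, hb, p, hp, hbp⟩ := Submodule.mem_sup.1 (h1 u)
    have h5 : p ∈ A ⊔ A' := by
      have h6 : p = (b + p) - b := by abel
      rw [h6, hbp]
      exact Submodule.sub_mem _ (h3 u) (Submodule.mem_sup_left hb)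
    have h6 : p = 0 := (Submodule.disjoint_def.1 (dec_perp Φ hN h.nd).compl.disjoint) p h5 hp
    rw [← hbp, h6, add_zero]
    exact hb
  intro v hv
  obtain ⟨u, hu, huv⟩ : ∃ u ∈ A, x u = v := hv
  have h5 : v = j ⟨u, hu⟩ := Subtype.ext huv.symm
  rw [h5]
  refine ⟨_, h4 ⟨u, hu⟩, ?_⟩
  show x (x⁻¹ _) = _
  rw [hxx']
  rfl

theorem odd_of_pq {d m : ℕ} (hd : 3 ≤ d) (h : Pq F d m) : Odd m := by
  by_contra hcon
  rw [Nat.not_odd_iff_even, even_iff_two_dvd] at hcon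
  have h1 := h.2 2 Nat.prime_two hcon
  have h2 : ∀ a : ZMod 2, a = 0 ∨ a = 1 := by decide
  rcases h2 ((Nat.card F : ℕ) : ZMod 2) with h3 | h3
  · rw [h3, orderOf_zero] at h1
    omega
  · rw [h3, orderOf_one] at h1
    omega

theorem no_field {W : Submodule F V} {d : ℕ} {x y z' : V ≃ₗ[F] V}
    {A A' : Submodule F V} (hN : Φ.Nd) (hx : x ∈ Φ.Iso) (hy : y ∈ Φ.Iso) (h : StA Φ d y A A' z') (hd3 : 3 ≤ d)
    (hd : Odd d) (hnd : Φ.NdOn W)
    (hW : (A ⊔ A').map (x : V →ₗ[F] V) ≤ W) (hinv : Inv (x * z' * x⁻¹) W) {K : Subgroup (W ≃ₗ[F] W)}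
    (hK : restr (x * z' * x⁻¹) hinv ∈ K) {T : Subalgebra F (Module.End F W)} (hT : IsField T) (h2 : finrank F T = 2)
    (hn : ∀ k ∈ K, ∀ a ∈ T, (k : W →ₗ[F] W) * a * ((k⁻¹ : W ≃ₗ[F] W) : W →ₗ[F] W) ∈ T) : False := by
  have hbl₁ : Bl Φ ((A ⊔ A').map (x : V →ₗ[F] V)) (x * z' * x⁻¹) := (stA_bl hy h).conj hx
  have hdec := dec_perp Φ hN hnd
  have ho : orderOf (restr (x * z' * x⁻¹) hinv) = orderOf z' := by
    rw [← orderOf_injective (ext hdec) (ext_injective hdec), ext_restr hdec hinv (hbl₁.mono hN hW hnd).fix]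
    exact orderOf_injective (MulAut.conj x).toMonoidHom (MulAut.conj x).injective z'
  have hodd : Odd (orderOf (restr (x * z' * x⁻¹) hinv)) := by
    rw [ho]; exact odd_of_pq hd3 h.ord
  have h1 := comm_of_odd hT h2 hodd (fun k hk => hn k (Subgroup.zpowers_le.2 hK hk))
  have h3 := stable (T := T) hN hx hy h hW hinv h1
  have h4 := even_finrank hT h2 h3
  have h5 : finrank F ↥((A.map (x : V →ₗ[F] V)).comap W.subtype) = d := by
    rw [← finrank_map_subtype, Submodule.map_comap_subtype,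
      inf_eq_right.2 ((Submodule.map_mono le_sup_left).trans hW), LinearEquiv.finrank_map_eq, h.dim]
  rw [h5] at h4
  exact (Nat.not_even_iff_odd.2 hd) h4

/-! ### the group `K_W` -/

theorem zpow_comap {W : Submodule F V} (E : Submodule F V) (hE : E ≤ W) :
    finrank F ↥(E.comap W.subtype) = finrank F E := by
  rw [← finrank_map_subtype, Submodule.map_comap_subtype, inf_eq_right.2 hE]

theorem on_sp {W : Submodule F V} (h : IsSp Φ) (hW : Φ.NdOn W) : IsSp (Φ.on W) :=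
  ⟨Cfsg.Agent.H440.Bs.NdOn.nd hW, h.s, fun x => h.q x, fun x => h.alt x⟩

theorem on_herm {W : Submodule F V} {r : ℕ} (h : IsHerm r Φ) (hW : Φ.NdOn W) : IsHerm r (Φ.on W) :=
  ⟨Cfsg.Agent.H440.Bs.NdOn.nd hW, h.card, h.s, fun x => h.q x, fun x y => h.symm x y⟩

theorem hyp_iso {G : Subgroup (V ≃ₗ[F] V)} {e d : ℕ} {x y z z' : V ≃ₗ[F] V} {E A A' : Submodule F V}
    (h : Hyp Φ G e d x y E A A' z z') : Φ.Nd ∧ x ∈ Φ.Iso ∧ y ∈ Φ.Iso := by
  obtain ⟨N, t, hk⟩ := h.kl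
  rcases hk with ⟨h1, rfl, -, -⟩ | ⟨r, h1, rfl, -, -⟩ | ⟨Q, h1, rfl, rfl, -, -⟩
  · exact ⟨h1.nd, h.hx, h.hy⟩
  · exact ⟨h1.nd, h.hx.1, h.hy.1⟩
  · have h2 : ∀ g ∈ Cfsg.Agent.LieClassical.OrthCore.E Q, g ∈ (frmQ Q).Iso := fun g hg =>
      ⟨fun x y => polar_map (E_le_O hg) x y, fun x => E_le_O hg x⟩
    exact ⟨h1, h2 _ h.hx, h2 _ h.hy⟩

theorem core (hUN : UN) (hUK1 : UK1) {G : Subgroup (V ≃ₗ[F] V)} {e d : ℕ} {x y z z' : V ≃ₗ[F] V}
    {E A A' W : Submodule F V} (h : Hyp Φ G e d x y E A A' z z') (hWdef : W = E ⊔ (A ⊔ A').map (x : V →ₗ[F] V)) :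
    Φ.NdOn W ∧ 10 ≤ finrank F W ∧ ∃ (hz : Inv z W) (hz₁ : Inv (x * z' * x⁻¹) W),
      Subgroup.closure {restr z hz, restr (x * z' * x⁻¹) hz₁} ≤ (Φ.on W).Iso ∧
      IrrG (Subgroup.closure {restr z hz, restr (x * z' * x⁻¹) hz₁}) ∧
      Alt (Subgroup.closure {restr z hz, restr (x * z' * x⁻¹) hz₁}) ∧
      (∀ v ∈ perp Φ W, z v = v) ∧ ∀ v ∈ perp Φ W, (x * z' * x⁻¹) v = v := by
  obtain ⟨hN, hx, hy⟩ := hyp_iso h
  have hnd : Φ.NdOn W := by rw [hWdef]; exact h.gp.nd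
  have hEW : E ≤ W := by rw [hWdef]; exact le_sup_left
  have hDW : (A ⊔ A').map (x : V →ₗ[F] V) ≤ W := by rw [hWdef]; exact le_sup_right
  have hb : Bl Φ E z := stE_bl hy h.sE
  have hb₁ : Bl Φ ((A ⊔ A').map (x : V →ₗ[F] V)) (x * z' * x⁻¹) := (stA_bl hy h.sA).conj hx
  have hbW := hb.mono hN hEW hnd
  have hbW₁ := hb₁.mono hN hDW hnd
  have hdec := dec_perp Φ hN hnd
  -- dimensions
  have hD : finrank F ↥(A ⊔ A') = 2 * d := by
    have h1 := Submodule.finrank_sup_add_finrank_inf_eq A A'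
    rw [h.sA.disj.eq_bot, finrank_bot, h.sA.dim, h.sA.dim'] at h1
    omega
  have hW : finrank F W = e + 2 * d := by
    have h1 := Submodule.finrank_sup_add_finrank_inf_eq E ((A ⊔ A').map (x : V →ₗ[F] V))
    rw [h.gp.disj.eq_bot, finrank_bot, h.sE.dim, LinearEquiv.finrank_map_eq, hD, ← hWdef] at h1
    omega
  have he := h.ten
  have hd3 := h.pos
  have hlt := h.lt
  refine ⟨hnd, by omega, hbW.inv, hbW₁.inv, ?_⟩
  set K := Subgroup.closure {restr z hbW.inv, restr (x * z' * x⁻¹) hbW₁.inv} with hK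
  have hzK : restr z hbW.inv ∈ K := Subgroup.subset_closure (Or.inl rfl)
  have hz₁K : restr (x * z' * x⁻¹) hbW₁.inv ∈ K := Subgroup.subset_closure (Or.inr rfl)
  have hKI : K ≤ (Φ.on W).Iso := by
    rw [hK, Subgroup.closure_le]
    rintro g (rfl | rfl)
    · exact restr_iso _ hb.iso
    · exact restr_iso _ hb₁.iso
  have hirr : IrrG K := by
    intro Y hY
    have h1 : Y.map W.subtype ≤ E ⊔ (A ⊔ A').map (x : V →ₗ[F] V) := by
      rw [← hWdef]; exact Submodule.map_subtype_le W Y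
    have h2 : Inv z (Y.map W.subtype) := by
      rintro _ ⟨v, hv, rfl⟩
      exact ⟨_, hY _ hzK v hv, restr_apply z hbW.inv v⟩
    have h3 : Inv (x * z' * x⁻¹) (Y.map W.subtype) := by
      rintro _ ⟨v, hv, rfl⟩
      exact ⟨_, hY _ hz₁K v hv, restr_apply (x * z' * x⁻¹) hbW₁.inv v⟩
    rcases hUK1 F V Φ e d hN x hx y hy E A A' z z' h.sE h.sA h.gp _ h1 h2 h3 with h4 | h4
    · exact Or.inl (Cfsg.Agent.H440.Bs.eq_bot_of_map h4)
    · right
      rw [← hWdef] at h4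
      rw [eq_top_iff]
      intro v _
      have h5 : (v : V) ∈ Y.map W.subtype := by rw [h4]; exact v.2
      obtain ⟨w, hw, hwv⟩ := h5
      rwa [← (Subtype.ext hwv : w = v)]
  refine ⟨hKI, hirr, ?_, hbW.fix, hbW₁.fix⟩
  -- the fixed space of `z`
  set C := perp (Φ.on W) (E.comap W.subtype) with hC
  have hCd : finrank F C + e = finrank F W := by
    have h1 := finrank_perp (Φ.on W) (Cfsg.Agent.H440.Bs.NdOn.nd hnd) (E.comap W.subtype)
    rw [zpow_comap E hEW, h.sE.dim] at h1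
    exact (add_comm _ _).trans h1
  have hC0 : C ≠ ⊥ := by
    intro h1
    rw [h1, finrank_bot] at hCd
    omega
  have hCfix : ∀ v ∈ C, restr z hbW.inv v = v := by
    intro v hv
    apply Subtype.ext
    rw [restr_apply]
    exact hb.fix v fun w hw => hv ⟨w, hEW hw⟩ hw
  have hord : Pp F e (orderOf (restr z hbW.inv)) := by
    rw [← orderOf_injective (ext hdec) (ext_injective hdec), ext_restr hdec hbW.inv hbW.fix]
    exact h.sE.ord
  rcases hUN F W K e (restr z hbW.inv) C (by omega) (by omega) hirr hzK hord hC0 hCd hCfix with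
    ⟨r, T, hr, hrd, hT, hT2, hn⟩ | h1
  · exfalso
    rw [hW] at hrd
    have h1 : r ∣ e + 2 * d := hrd.trans (Nat.gcd_dvd_left _ _)
    have h2 : r ∣ e := hrd.trans (Nat.gcd_dvd_right _ _)
    have h3 : r ∣ 2 * d := (Nat.dvd_add_right h2).1 h1
    rcases h.cop with h4 | ⟨hodd, h4⟩
    · have h5 : r ∣ Nat.gcd e (2 * d) := Nat.dvd_gcd h2 h3
      rw [h4] at h5
      exact hr.one_lt.ne' (Nat.dvd_one.1 h5)
    · have h5 : r = 2 := by
        rcases (hr.dvd_mul).1 h3 with h6 | h6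
        · exact (Nat.prime_dvd_prime_iff_eq hr Nat.prime_two).1 h6
        · exfalso
          have h7 : r ∣ Nat.gcd e d := Nat.dvd_gcd h2 h6
          rw [h4] at h7
          exact hr.one_lt.ne' (Nat.dvd_one.1 h7)
      rw [h5] at hT2
      exact no_field hN hx hy h.sA hd3 hodd hnd hDW hbW₁.inv hz₁K hT hT2 hn
  · exact h1

theorem det_ext {W : Submodule F V} (h : Φ.Dec W (perp Φ W)) (k : W ≃ₗ[F] W) :
    LinearMap.det ((ext h k : V ≃ₗ[F] V) : V →ₗ[F] V) = LinearMap.det (k : W →ₗ[F] W) := by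
  have h1 := Cfsg.Agent.H42.Bs.det_glue h.compl k 1
  rw [show ext h k = glue h.compl k 1 from rfl, h1]
  have h2 : (((1 : perp Φ W ≃ₗ[F] perp Φ W)) : perp Φ W →ₗ[F] perp Φ W) = LinearMap.id := rfl
  rw [h2, LinearMap.det_id, mul_one]

/-- **UK3** -/
theorem uk3 (hUN : UN) (hUK1 : UK1) : UK3 := by
  intro F V _ _ _ _ _ Φ G e d x y z z' E A A' W H h hWdef hzH hz₁H
  obtain ⟨hN, hx, hy⟩ := hyp_iso h
  obtain ⟨hnd, h10, hz, hz₁, hKI, hirr, hA, hfix, hfix₁⟩ := core hUN hUK1 h hWdef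
  set K := Subgroup.closure {restr z hz, restr (x * z' * x⁻¹) hz₁} with hK
  have hdec := dec_perp Φ hN hnd
  have hKH : ∀ k ∈ K, ext hdec k ∈ H := by
    have h1 : K ≤ H.comap (ext hdec) := by
      rw [hK, Subgroup.closure_le]
      rintro g (rfl | rfl)
      · show ext hdec (restr z hz) ∈ H
        rw [ext_restr hdec hz hfix]; exact hzH
      · show ext hdec (restr (x * z' * x⁻¹) hz₁) ∈ H
        rw [ext_restr hdec hz₁ hfix₁]; exact hz₁H
    exact h1
  refine ⟨fun hS h2 => ?_, fun r hS => ?_, fun Q hQ u hu w hw hQu huw => ?_, fun hS h2 => ?_⟩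
  · intro g hg hgW hgf
    have h3 := (out_sp hA hKI hirr (by omega) (on_sp hS hnd)).1 h2 (restr_iso hgW hg)
    rw [← ext_restr hdec hgW hgf]
    exact hKH _ h3
  · intro g hg hgW hgf
    have h4 : restr g hgW ∈ slV F W := by
      show LinearMap.det ((restr g hgW : W ≃ₗ[F] W) : W →ₗ[F] W) = 1
      rw [← det_ext hdec, ext_restr hdec hgW hgf]
      exact hg.2
    have h3 := out_su hA hKI hirr (by omega) (on_herm hS hnd) ⟨restr_iso hgW hg.1, h4⟩
    rw [← ext_restr hdec hgW hgf]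
    exact hKH _ h3
  · subst hQ
    let Q₀ : QuadraticForm F W := Q.comp W.subtype
    have hp : ∀ a b : W, QuadraticMap.polar Q₀ a b = QuadraticMap.polar Q (a : V) b := fun a b => rfl
    have h3 := out_quad (Q₀ := Q₀) hA hKI hirr (by omega) (Cfsg.Agent.H440.Bs.NdOn.nd hnd)
    have hu0 : Q₀ ⟨u, hu⟩ = 0 := hQu
    have hw0 : QuadraticMap.polar Q₀ ⟨u, hu⟩ ⟨w, hw⟩ = 0 := huw
    have h4 := hKH _ (h3 (siegel_mem_E hu0 hw0))
    refine ⟨hQu, huw, ?_⟩
    have h5 : siegel Q u w hQu huw = ext hdec (siegel Q₀ ⟨u, hu⟩ ⟨w, hw⟩ hu0 hw0) := by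
      ext v
      obtain ⟨a, b, rfl⟩ := exists_add' hdec.compl v
      have hb : ∀ t ∈ W, QuadraticMap.polar Q t (b : V) = 0 := fun t ht => (mem_perp' _).1 b.2 t ht
      rw [ext_add, siegel_apply, siegel_apply, QuadraticMap.polar_add_right, QuadraticMap.polar_add_right, hb u hu,
        hb w hw, add_zero, add_zero]
      show _ = ((a : V) + QuadraticMap.polar Q u a • w - QuadraticMap.polar Q w a • u -
        (Q w * QuadraticMap.polar Q u a) • u) + (b : V)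
      abel
    rw [h5]
    exact h4
  · obtain ⟨Q', hQ', hE⟩ := (out_sp hA hKI hirr (by omega) (on_sp hS hnd)).2 h2
    classical
    let q : V → F := fun v => if hv : v ∈ W then Q' ⟨v, hv⟩ else 0
    have hq : ∀ v (hv : v ∈ W), q v = Q' ⟨v, hv⟩ := fun v hv => dif_pos hv
    refine ⟨q, fun u hu w hw => ?_, fun a w hw => ?_, fun s hs t ht hqs hqt hst => ?_⟩
    · rw [hq _ (W.add_mem hu hw), hq u hu, hq w hw]
      have h3 := hQ' ⟨u, hu⟩ ⟨w, hw⟩
      rw [QuadraticMap.polar] at h3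
      have h4 : ((Φ.on W).B ⟨u, hu⟩ ⟨w, hw⟩) = Φ.B u w := rfl
      rw [h4] at h3
      have h5 : (⟨u + w, W.add_mem hu hw⟩ : W) = ⟨u, hu⟩ + ⟨w, hw⟩ := rfl
      rw [h5]
      linear_combination h3
    · rw [hq _ (W.smul_mem a hw), hq w hw]
      have h5 : (⟨a • w, W.smul_mem a hw⟩ : W) = a • ⟨w, hw⟩ := rfl
      rw [h5, QuadraticMap.map_smul, smul_eq_mul]
      ring
    · rw [hq s hs] at hqs
      rw [hq t ht] at hqt
      have hst' : QuadraticMap.polar Q' ⟨s, hs⟩ ⟨t, ht⟩ = 0 := by rw [hQ']; exact hst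
      refine ⟨ext hdec (siegel Q' ⟨s, hs⟩ ⟨t, ht⟩ hqs hst'), hKH _ (hE (siegel_mem_E hqs hst')), ?_⟩
      have hsk : ∀ a b : V, Φ.B a b = Φ.B b a := by
        intro a b
        have h3 := hS.alt (a + b)
        rw [Φ.add_left, Φ.add_right, Φ.add_right, hS.alt a, hS.alt b] at h3
        linear_combination h3 - (Φ.B b a) * h2
      apply LinearMap.ext
      intro v
      obtain ⟨a, b, rfl⟩ := exists_add' hdec.compl v
      have hb : ∀ t ∈ W, Φ.B (b : V) t = 0 := fun t ht => b.2 t ht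
      show ext hdec (siegel Q' ⟨s, hs⟩ ⟨t, ht⟩ hqs hst') ((a : V) + b) = ((a : V) + b) + Φ.B ((a : V) + b) s • t +
        Φ.B ((a : V) + b) t • s
      rw [ext_add, siegel_apply, hQ', hQ', hqt, zero_mul, zero_smul, sub_zero, Φ.add_left, Φ.add_left, hb s hs, hb t ht,
        add_zero, add_zero]
      show ((a : V) + Φ.B s a • t - Φ.B t a • s) + (b : V) = _
      rw [hsk s a, hsk t a]
      have h3 : Φ.B (a : V) t • s = -(Φ.B (a : V) t • s) := by
        rw [← neg_smul]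
        congr 1
        linear_combination (Φ.B (a : V) t) * h2
      rw [sub_eq_add_neg, ← h3]
      abel

end Cfsg.Agent.H791.UK
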