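import Cfsg.Agent.H847.Ux.Norm
import Cfsg.Agent.H440.Bs.Iso

/-!
# UK3 (S5716, helper791): proportional forms

`Ψ` symplectic, hermitian or quadratic on `U`, `Φ₀` another form. If `v^⊥ ≤ v^⊥₀` for all isotropic `v` of `Ψ`, then
`Φ₀.B = c Ψ.B`. Transvections give this hypothesis.
-/

set_option autoImplicit false
set_option linter.unusedSectionVars false

namespace Cfsg.Agent.H791.UK

open Module Cfsg.Agent.H847.Bs Cfsg.Agent.LieClassical.OrthCore QuadraticMap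
open Cfsg.Agent.H440.Bs (perp mem_perp mem_perp' finrank_perp B_zero_right B_zero_left)
open Cfsg.Agent.H847.Ux (Kl)

section

variable {F U : Type} [Field F] [AddCommGroup U] [Module F U]

theorem exists_scalar {Φ₀ Ψ : Frm F U} {v : U} (h : ∀ y, Ψ.B y v = 0 → Φ₀.B y v = 0) :
    ∃ c : F, ∀ y, Φ₀.B y v = c * Ψ.B y v := by
  by_cases h0 : ∀ y, Ψ.B y v = 0
  · exact ⟨0, fun y => by rw [h y (h0 y), zero_mul]⟩
  · push Not at h0
    obtain ⟨y₀, hy₀⟩ := h0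
    refine ⟨Φ₀.B y₀ v * (Ψ.B y₀ v)⁻¹, fun y => ?_⟩
    have h1 : Ψ.B (y + (-(Ψ.B y v * (Ψ.B y₀ v)⁻¹)) • y₀) v = 0 := by
      rw [Ψ.add_left, Ψ.smul_left]
      field_simp
      ring
    have h2 := h _ h1
    rw [Φ₀.add_left, Φ₀.smul_left] at h2
    linear_combination h2

/-- from a transvection -/
theorem of_trans {Φ₀ Ψ : Frm F U} {v : U} {t : U ≃ₗ[F] U} (ht : t ∈ Φ₀.Iso) {a : F} (ha : a ≠ 0)
    (htv : ∀ y, t y = y + (a * Ψ.B y v) • v) (hv : ∃ y, Ψ.B y v ≠ 0) : ∀ y, Ψ.B y v = 0 → Φ₀.B y v = 0 := by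
  intro y hy
  obtain ⟨y', hy'⟩ := hv
  have h1 := ht.1 y y'
  rw [htv y, hy, mul_zero, zero_smul, add_zero, htv y', Φ₀.add_right] at h1
  have h2 : Φ₀.B y ((a * Ψ.B y' v) • v) = 0 := by linear_combination h1
  have h3 : a * Ψ.B y' v ≠ 0 := mul_ne_zero ha hy'
  have h4 := Φ₀.smul_right (a * Ψ.B y' v)⁻¹ y ((a * Ψ.B y' v) • v)
  rwa [smul_smul, inv_mul_cancel₀ h3, one_smul, h2, mul_zero] at h4

/-- isotropic (singular) vectors -/
def S (Ψ : Frm F U) (v : U) : Prop := Ψ.B v v = 0 ∧ Ψ.q v = 0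

theorem exists_ne {Ψ : Frm F U} (hN : Ψ.Nd) {v : U} (hv : v ≠ 0) : ∃ y, Ψ.B y v ≠ 0 := by
  by_contra h
  push Not at h
  exact hv (hN v fun y => Ψ.refl _ _ (h y))

end

section

variable {F U : Type} [Field F] [Finite F] [AddCommGroup U] [Module F U] [Module.Finite F U]
  {Ψ Φ₀ : Frm F U} {G : Subgroup (U ≃ₗ[F] U)} {N : ℕ}

theorem kl_nd (h : Kl Ψ G N) : Ψ.Nd := by
  rcases h with ⟨h, -, -⟩ | ⟨r, h, -, -⟩ | ⟨Q, h, rfl, -, -⟩
  · exact h.nd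
  · exact h.nd
  · exact h

theorem S_add {a b : U} (ha : S Ψ a) (hb : S Ψ b) (hab : Ψ.B a b = 0) : S Ψ (a + b) := by
  refine ⟨?_, ?_⟩
  · rw [Ψ.add_left, Ψ.add_right, Ψ.add_right, ha.1, hb.1, hab, Ψ.refl _ _ hab]
    ring
  · rw [Ψ.q_add _ _ hab, ha.2, hb.2, add_zero]

theorem S_smul (h : Kl Ψ G N) {a : U} (ha : S Ψ a) (c : F) : S Ψ (c • a) := by
  refine ⟨by rw [Ψ.smul_left, Ψ.smul_right, ha.1]; ring, ?_⟩
  rcases h with ⟨h, -, -⟩ | ⟨r, h, -, -⟩ | ⟨Q, h, rfl, -, -⟩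
  · exact h.q _
  · exact h.q _
  · have h1 : Q a = 0 := ha.2
    show Q (c • a) = 0
    rw [QuadraticMap.map_smul, h1, smul_zero]

/-- independent vectors: the functional of `b` is not determined by that of `a` -/
theorem sep1 (h : Kl Ψ G N) {a b : U} (hb : b ∉ Submodule.span F {a}) : ∃ y, Ψ.B y b = 1 ∧ Ψ.B y a = 0 := by
  have hr : Set.range ![a] = {a} := by simp
  obtain ⟨y, hy, hya⟩ := Cfsg.Agent.H847.Ux.sep h (k := 1) ![a] (e := b) (by rw [hr]; exact hb)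
  exact ⟨y, hy, hya 0⟩

theorem not_mem_span_symm {a b : U} (ha : a ≠ 0) (hb : b ∉ Submodule.span F {a}) : a ∉ Submodule.span F {b} := by
  intro h
  obtain ⟨c, hc⟩ := Submodule.mem_span_singleton.1 h
  apply hb
  rw [Submodule.mem_span_singleton]
  have hc0 : c ≠ 0 := by
    rintro rfl
    rw [zero_smul] at hc
    exact ha hc.symm
  exact ⟨c⁻¹, by rw [← hc, smul_smul, inv_mul_cancel₀ hc0, one_smul]⟩

theorem conn (h : Kl Ψ G N) (hS : ∀ v, S Ψ v → ∀ y, Ψ.B y v = 0 → Φ₀.B y v = 0) {a b : U} (ha : S Ψ a) (hb : S Ψ b)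
    (ha0 : a ≠ 0) (hab : Ψ.B a b = 0) (hind : b ∉ Submodule.span F {a}) {c : F}
    (hc : ∀ y, Φ₀.B y a = c * Ψ.B y a) : ∀ y, Φ₀.B y b = c * Ψ.B y b := by
  obtain ⟨c', hc'⟩ := exists_scalar (hS _ (S_add ha hb hab))
  obtain ⟨d, hd⟩ := exists_scalar (hS _ hb)
  have key : ∀ y, c * Ψ.B y a + d * Ψ.B y b = c' * (Ψ.B y a + Ψ.B y b) := by
    intro y
    rw [← hc, ← hd, ← Φ₀.add_right, hc', Ψ.add_right]
  obtain ⟨y, hy1, hy2⟩ := sep1 h hind
  obtain ⟨y', hy1', hy2'⟩ := sep1 h (not_mem_span_symm ha0 hind)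
  have e1 := key y
  have e2 := key y'
  rw [hy1, hy2] at e1
  rw [hy1', hy2'] at e2
  have e3 : d = c := by linear_combination e1 - e2
  rw [← e3]
  exact hd

/-- **proportional forms** -/
theorem prop_of (h : Kl Ψ G N) (hn : 7 ≤ finrank F U) (h0 : Φ₀.Nd)
    (hS : ∀ v, S Ψ v → ∀ y, Ψ.B y v = 0 → Φ₀.B y v = 0) :
    ∃ c : F, c ≠ 0 ∧ (∀ x y, Φ₀.B x y = c * Ψ.B x y) ∧ ∀ a, Φ₀.s a = Ψ.s a := by
  have hfU : Finite U := Module.finite_of_finite F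
  have hN := kl_nd h
  obtain ⟨e₀, he0, he1, he2, -⟩ := Cfsg.Agent.H847.Ux.exists_iso h (k := 0) (by omega) ![]
  have he : S Ψ e₀ := ⟨he1, he2⟩
  have he00 : e₀ ≠ 0 := fun h0 => he0 (by rw [h0]; exact zero_mem _)
  obtain ⟨c, hc⟩ := exists_scalar (hS _ he)
  have hc0 : c ≠ 0 := by
    rintro rfl
    obtain ⟨y, hy⟩ := exists_ne h0 he00
    apply hy
    rw [hc, zero_mul]
  -- all isotropic vectors
  have hall : ∀ v, S Ψ v → ∀ y, Φ₀.B y v = c * Ψ.B y v := by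
    intro v hv
    by_cases hv0 : v = 0
    · intro y
      rw [hv0, B_zero_right, B_zero_right, mul_zero]
    obtain ⟨u, hu0, hu1, hu2, hu3⟩ := Cfsg.Agent.H847.Ux.exists_iso h (k := 2) (by omega) ![e₀, v]
    have hu : S Ψ u := ⟨hu1, hu2⟩
    have hr : Set.range ![e₀, v] = {e₀, v} := by
      rw [Matrix.range_cons, Matrix.range_cons, Matrix.range_empty, Set.union_empty]
      rfl
    rw [hr] at hu0
    have hue : u ∉ Submodule.span F {e₀} := fun h1 => hu0 (Submodule.span_mono (by simp) h1)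
    have huv : u ∉ Submodule.span F {v} := fun h1 => hu0 (Submodule.span_mono (by simp) h1)
    have hu00 : u ≠ 0 := fun h1 => hue (by rw [h1]; exact zero_mem _)
    have h1 : Ψ.B e₀ u = 0 := Ψ.refl _ _ (hu3 0)
    have h2 : Ψ.B u v = 0 := hu3 1
    have h3 := conn h hS he hu he00 h1 hue hc
    exact conn h hS hu hv hu00 h2 (not_mem_span_symm hv0 huv) h3
  -- the field automorphisms agree
  have hs : ∀ a, Φ₀.s a = Ψ.s a := by
    intro a
    obtain ⟨y, hy⟩ := exists_ne hN he00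
    have h1 := hall _ (S_smul h he a) y
    rw [Φ₀.smul_right, Ψ.smul_right, hc] at h1
    have h2 : c * Ψ.B y e₀ ≠ 0 := mul_ne_zero hc0 hy
    apply mul_right_cancel₀ h2
    linear_combination h1
  refine ⟨c, hc0, ?_, hs⟩
  -- the span of the isotropic vectors
  let Y : Submodule F U :=
    { carrier := {y | ∀ x, Φ₀.B x y = c * Ψ.B x y}
      add_mem' := fun {y z} hy hz x => by
        show Φ₀.B x (y + z) = _
        rw [Φ₀.add_right, Ψ.add_right, show Φ₀.B x y = _ from hy x, show Φ₀.B x z = _ from hz x, mul_add]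
      zero_mem' := fun x => by rw [B_zero_right, B_zero_right, mul_zero]
      smul_mem' := fun a y hy x => by
        show Φ₀.B x (a • y) = _
        rw [Φ₀.smul_right, Ψ.smul_right, hs, show Φ₀.B x y = _ from hy x]
        ring }
  suffices hY : Y = ⊤ by
    intro x y
    have : y ∈ Y := by rw [hY]; trivial
    exact this x
  by_contra hY
  have h1 := finrank_perp Ψ hN Y
  have h2 : finrank F Y < finrank F U := Submodule.finrank_lt hY
  have h3 : perp Ψ Y ≠ ⊥ := by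
    intro h4
    rw [h4, finrank_bot] at h1
    omega
  obtain ⟨w, hw, hw0⟩ := Submodule.exists_mem_ne_zero_of_ne_bot h3
  have hw' : ∀ y ∈ Y, Ψ.B y w = 0 := fun y hy => Ψ.refl _ _ (hw y hy)
  obtain ⟨x₁, hx₁⟩ := exists_ne hN hw0
  obtain ⟨x₂, hx₂⟩ := exists_ne hN he00
  obtain ⟨x, hxw, hxe⟩ : ∃ x, Ψ.B x w ≠ 0 ∧ Ψ.B x e₀ ≠ 0 := by
    by_cases h5 : Ψ.B x₁ e₀ = 0
    · by_cases h6 : Ψ.B x₂ w = 0
      · refine ⟨x₁ + x₂, ?_, ?_⟩
        · rw [Ψ.add_left, h6, add_zero]; exact hx₁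
        · rw [Ψ.add_left, h5, zero_add]; exact hx₂
      · exact ⟨x₂, h6, hx₂⟩
    · exact ⟨x₁, hx₁, h5⟩
  have h5 := Cfsg.Agent.H847.Ux.line_ge h he1 he2 0 x hxe
  have h6 : 0 < Nat.card F := Nat.card_pos
  have h7 : 0 < Nat.card {t : F // x + t • e₀ ∈ {x : U | Ψ.B x x = Ψ.B 0 0 ∧ Ψ.q x = Ψ.q 0}} := by
    rcases Nat.eq_zero_or_pos (Nat.card {t : F // x + t • e₀ ∈ {x : U | Ψ.B x x = Ψ.B 0 0 ∧ Ψ.q x = Ψ.q 0}}) with h8 | h8
    · rw [h8, mul_zero] at h5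
      omega
    · exact h8
  obtain ⟨⟨t, ht1, ht2⟩⟩ := (Nat.card_pos_iff.1 h7).1
  rw [B_zero_right] at ht1
  rw [Cfsg.Agent.H440.Bs.q_zero] at ht2
  have h8 : x + t • e₀ ∈ Y := hall _ ⟨ht1, ht2⟩
  have h9 := hw' _ h8
  rw [Ψ.add_left, Ψ.smul_left, hw' e₀ (hall _ he), mul_zero, add_zero] at h9
  exact hxw h9

end

end Cfsg.Agent.H791.UK
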