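import Cfsg.Agent.H141.Ux.Stmts
import Cfsg.Agent.H791.UK.Fld

/-!
# UK3 (S5716, helper791): the group generated by the two blocks

`Bl Φ X g` : `g` is an isometry which leaves the nondegenerate subspace `X` invariant and is trivial on `X^⊥`.
-/

set_option autoImplicit false
set_option linter.unusedSectionVars false
set_option linter.style.haveILetI false

namespace Cfsg.Agent.H791.UK

open Module Cfsg.Agent.H847.Bs Cfsg.Agent.LieClassical.OrthCore Cfsg.Agent.H141.Ux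
open Cfsg.Agent.H440.Bs (perp mem_perp mem_perp' finrank_perp B_zero_right B_zero_left dec_perp restr restr_apply
  glue_add glueHom glueHom_injective exists_add' finrank_map_subtype)

variable {F V : Type} [Field F] [Finite F] [AddCommGroup V] [Module F V] [Module.Finite F V] {Φ : Frm F V}

/-- the elements which leave `Y` invariant -/
def stb (Y : Submodule F V) : Subgroup (V ≃ₗ[F] V) where
  carrier := {g | Inv g Y}
  mul_mem' := fun ha hb => Cfsg.Agent.H440.Bs.Inv.mul ha hb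
  one_mem' := fun _ hv => hv
  inv_mem' := fun h => Cfsg.Agent.H440.Bs.Inv.inv h

theorem inv_of_zpowers {y z : V ≃ₗ[F] V} (hz : z ∈ Subgroup.zpowers y) {Y : Submodule F V} (hY : Inv y Y) : Inv z Y := by
  have h : Subgroup.zpowers y ≤ stb Y := by
    rw [Subgroup.zpowers_le]; exact hY
  exact h hz

theorem iso_of_zpowers {y z : V ≃ₗ[F] V} (hz : z ∈ Subgroup.zpowers y) (hy : y ∈ Φ.Iso) : z ∈ Φ.Iso := by
  have h : Subgroup.zpowers y ≤ Φ.Iso := by
    rw [Subgroup.zpowers_le]; exact hy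
  exact h hz

/-- block data -/
structure Bl (Φ : Frm F V) (X : Submodule F V) (g : V ≃ₗ[F] V) : Prop where
  iso : g ∈ Φ.Iso
  nd : Φ.NdOn X
  inv : Inv g X
  fix : ∀ v ∈ perp Φ X, g v = v

theorem perp_anti {X Y : Submodule F V} (h : X ≤ Y) : perp Φ Y ≤ perp Φ X := fun _ hv x hx => hv x (h hx)

theorem Bl.sub_mem (hN : Φ.Nd) {X : Submodule F V} {g : V ≃ₗ[F] V} (h : Bl Φ X g) (v : V) : g v - v ∈ X := by
  obtain ⟨d, u, rfl⟩ := exists_add' (dec_perp Φ hN h.nd).compl v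
  rw [map_add, h.fix u u.2]
  have : g (d : V) + (u : V) - ((d : V) + u) = g d - d := by abel
  rw [this]
  exact X.sub_mem (h.inv d d.2) d.2

theorem Bl.inv_of_le (hN : Φ.Nd) {X W : Submodule F V} {g : V ≃ₗ[F] V} (h : Bl Φ X g) (hXW : X ≤ W) : Inv g W := by
  intro v hv
  have h1 : g v = (g v - v) + v := by abel
  rw [h1]
  exact W.add_mem (hXW (h.sub_mem hN v)) hv

theorem Bl.mono (hN : Φ.Nd) {X W : Submodule F V} {g : V ≃ₗ[F] V} (h : Bl Φ X g) (hXW : X ≤ W) (hW : Φ.NdOn W) :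
    Bl Φ W g :=
  ⟨h.iso, hW, h.inv_of_le hN hXW, fun v hv => h.fix v (perp_anti hXW hv)⟩

theorem ndOn_map {g : V ≃ₗ[F] V} (hg : g ∈ Φ.Iso) {X : Submodule F V} (h : Φ.NdOn X) :
    Φ.NdOn (X.map (g : V →ₗ[F] V)) := by
  rintro _ ⟨v, hv, rfl⟩ h1
  have : v = 0 := h v hv fun w hw => by
    rw [← hg.1]
    exact h1 _ (Submodule.mem_map_of_mem (f := (g : V →ₗ[F] V)) hw)
  rw [this, map_zero]

theorem Bl.conj {X : Submodule F V} {g x : V ≃ₗ[F] V} (h : Bl Φ X g) (hx : x ∈ Φ.Iso) :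
    Bl Φ (X.map (x : V →ₗ[F] V)) (x * g * x⁻¹) := by
  refine ⟨Φ.Iso.mul_mem (Φ.Iso.mul_mem hx h.iso) (Φ.Iso.inv_mem hx), ndOn_map hx h.nd,
    Cfsg.Agent.H440.Bs.Inv.conj h.inv, fun v hv => ?_⟩
  have h1 : ∀ w, x (x⁻¹ w) = w := fun w => x.apply_symm_apply w
  have h2 : x⁻¹ v ∈ perp Φ X := by
    intro d hd
    rw [← hx.1, h1]
    exact hv _ (Submodule.mem_map_of_mem (f := (x : V →ₗ[F] V)) hd)
  show x (g (x⁻¹ v)) = v
  rw [h.fix _ h2, h1]

theorem stE_bl {e : ℕ} {y z : V ≃ₗ[F] V} {E : Submodule F V} (hy : y ∈ Φ.Iso) (h : StE Φ e y E z) : Bl Φ E z :=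
  ⟨iso_of_zpowers h.mem hy, h.nd, inv_of_zpowers h.mem h.inv, h.fix⟩

theorem stA_bl {d : ℕ} {y z : V ≃ₗ[F] V} {A A' : Submodule F V} (hy : y ∈ Φ.Iso) (h : StA Φ d y A A' z) :
    Bl Φ (A ⊔ A') z := by
  refine ⟨iso_of_zpowers h.mem hy, h.nd, ?_, h.fix⟩
  have h1 := inv_of_zpowers h.mem h.inv
  have h2 := inv_of_zpowers h.mem h.inv'
  intro v hv
  obtain ⟨a, ha, b, hb, rfl⟩ := Submodule.mem_sup.1 hv
  rw [map_add]
  exact Submodule.add_mem_sup (h1 a ha) (h2 b hb)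

/-! ### the embedding of the linear group of `W` -/

/-- extension by the identity -/
noncomputable def ext {W : Submodule F V} (h : Φ.Dec W (perp Φ W)) : (W ≃ₗ[F] W) →* (V ≃ₗ[F] V) :=
  (glueHom h.compl).comp (MonoidHom.inl _ _)

theorem ext_add {W : Submodule F V} (h : Φ.Dec W (perp Φ W)) (k : W ≃ₗ[F] W) (w : W) (u : perp Φ W) :
    ext h k ((w : V) + u) = k w + u := glue_add h.compl k 1 w u

theorem ext_coe {W : Submodule F V} (h : Φ.Dec W (perp Φ W)) (k : W ≃ₗ[F] W) (w : W) : ext h k (w : V) = k w := by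
  have := ext_add h k w 0
  rwa [Submodule.coe_zero, add_zero, add_zero] at this

theorem ext_injective {W : Submodule F V} (h : Φ.Dec W (perp Φ W)) : Function.Injective (ext h) := by
  intro k k' hk
  have := glueHom_injective h.compl (a₁ := (k, 1)) (a₂ := (k', 1)) hk
  exact congrArg Prod.fst this

theorem ext_restr {W : Submodule F V} (h : Φ.Dec W (perp Φ W)) {g : V ≃ₗ[F] V} (hg : Inv g W)
    (hfix : ∀ v ∈ perp Φ W, g v = v) : ext h (restr g hg) = g := by
  ext v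
  obtain ⟨d, u, rfl⟩ := exists_add' h.compl v
  rw [ext_add, restr_apply, map_add, hfix u u.2]

theorem restr_iso {W : Submodule F V} {g : V ≃ₗ[F] V} (hg : Inv g W) (h : g ∈ Φ.Iso) : restr g hg ∈ (Φ.on W).Iso := by
  refine ⟨fun x y => ?_, fun x => ?_⟩
  · show Φ.B (restr g hg x : V) (restr g hg y : V) = Φ.B x y
    rw [restr_apply, restr_apply, h.1]
  · show Φ.q (restr g hg x : V) = Φ.q x
    rw [restr_apply, h.2]

end Cfsg.Agent.H791.UK
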